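import Mathlib
import Cfsg.Agent.Lib.Perm.Basic

/-!
Triply transitive groups whose point stabiliser has a normal subgroup `U` that is regular on the
remaining points: the two-point stabiliser in the normal closure of `U` lies in the derived group
of the stabiliser of the pair.
-/

set_option autoImplicit false

namespace H26.TR

open Subgroup MulAction
open scoped commutatorElement

variable {G Ω : Type*} [Group G] [MulAction G Ω]

/-- The stabiliser of an unordered pair. -/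
def pairStab (a b : Ω) : Subgroup G where
  carrier := {g | (g • a = a ∧ g • b = b) ∨ (g • a = b ∧ g • b = a)}
  one_mem' := Or.inl ⟨one_smul _ _, one_smul _ _⟩
  mul_mem' := by
    rintro g h (⟨h1, h2⟩ | ⟨h1, h2⟩) (⟨h3, h4⟩ | ⟨h3, h4⟩) <;>
      simp only [Set.mem_ofPred_eq, mul_smul, h1, h2, h3, h4, and_self, true_or, or_true]
  inv_mem' := by
    rintro g (⟨h1, h2⟩ | ⟨h1, h2⟩)
    · exact Or.inl ⟨inv_smul_eq_iff.2 h1.symm, inv_smul_eq_iff.2 h2.symm⟩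
    · exact Or.inr ⟨inv_smul_eq_iff.2 h2.symm, inv_smul_eq_iff.2 h1.symm⟩

theorem mem_pairStab {a b : Ω} {g : G} :
    g ∈ (pairStab a b : Subgroup G) ↔ (g • a = a ∧ g • b = b) ∨ (g • a = b ∧ g • b = a) := Iff.rfl

theorem commutator_pairStab_le (a b : Ω) :
    ⁅(pairStab a b : Subgroup G), (pairStab a b : Subgroup G)⁆ ≤ stabilizer G a ⊓ stabilizer G b := by
  rw [commutator_le]
  intro g hg h hh
  have hg' := (pairStab a b).inv_mem hg
  have hh' := (pairStab a b).inv_mem hh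
  rcases hg with ⟨h1, h2⟩ | ⟨h1, h2⟩ <;> rcases hh with ⟨h3, h4⟩ | ⟨h3, h4⟩ <;>
    have e1 := inv_smul_eq_iff.2 h1.symm <;> have e2 := inv_smul_eq_iff.2 h2.symm <;>
    have e3 := inv_smul_eq_iff.2 h3.symm <;> have e4 := inv_smul_eq_iff.2 h4.symm <;>
    simp only [mem_inf, mem_stabilizer_iff, commutatorElement_def, mul_smul, h1, h2, h3, h4, e1, e2,
      e3, e4, and_self]

/-- `U` is normal in the stabiliser of `a` and regular on the other points. -/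
structure Aff (U : Subgroup G) (a : Ω) : Prop where
  fix : ∀ u ∈ U, u • a = a
  norm : ∀ g : G, g • a = a → ∀ u ∈ U, g * u * g⁻¹ ∈ U
  trans : ∀ y z : Ω, y ≠ a → z ≠ a → ∃ u ∈ U, u • y = z
  free : ∀ u ∈ U, ∀ y : Ω, y ≠ a → u • y = y → u = 1

namespace Aff

variable {U : Subgroup G} {a b : Ω} (h : Aff U a)
include h

theorem eq_of_smul {u v : G} (hu : u ∈ U) (hv : v ∈ U) {y : Ω} (hy : y ≠ a) (e : u • y = v • y) :
    u = v :=
  (inv_mul_eq_one.1 (h.free _ (U.mul_mem (U.inv_mem hv) hu) y hy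
    (by rw [mul_smul, e, inv_smul_smul]))).symm

theorem norm' {g : G} (hg : g • a = a) {u : G} (hu : u ∈ U) : g⁻¹ * u * g ∈ U := by
  simpa using h.norm g⁻¹ (inv_smul_eq_iff.2 hg.symm) u hu

theorem smul_ne {u : G} (hu : u ∈ U) {y : Ω} (hy : y ≠ a) : u • y ≠ a := fun e =>
  hy (MulAction.injective u (e.trans (h.fix u hu).symm))

omit h in
/-- The elements of `U τ U τ⁻¹ U` interchanging `a` and `b`. -/
def Nu (U : Subgroup G) (a b : Ω) (τ ν : G) : Prop :=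
  ν • a = b ∧ ν • b = a ∧ ∃ s ∈ U, ∃ t ∈ U, ∃ u ∈ U, u ≠ 1 ∧ ν = s * (τ * u * τ⁻¹) * t

variable {τ : G} (hab : b ≠ a) (h1 : τ • a = b) (h2 : τ • b = a)
include hab h1 h2

theorem conj_smul_ne {u : G} (hu : u ∈ U) (hu1 : u ≠ 1) : (τ * u * τ⁻¹) • a ≠ a := fun e => by
  rw [mul_smul, mul_smul, inv_smul_eq_iff.2 h2.symm, ← h2] at e
  exact hu1 (h.free u hu b hab (MulAction.injective τ e))

omit hab h2 in
theorem conj_smul {u : G} (hu : u ∈ U) : (τ * u * τ⁻¹) • b = b := by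
  rw [mul_smul, mul_smul, inv_smul_eq_iff.2 h1.symm, h.fix u hu, h1]

theorem exists_nu {u : G} (hu : u ∈ U) (hu1 : u ≠ 1) :
    ∃ s ∈ U, ∃ t ∈ U, Nu U a b τ (s * (τ * u * τ⁻¹) * t) := by
  have e1 := h.conj_smul_ne hab h1 h2 hu hu1
  obtain ⟨s, hs, hs'⟩ := h.trans _ b e1 hab
  obtain ⟨t, ht, ht'⟩ := h.trans b ((τ * u * τ⁻¹)⁻¹ • a) hab fun e => e1 (inv_smul_eq_iff.1 e).symm
  refine ⟨s, hs, t, ht, ?_, ?_, s, hs, t, ht, u, hu, hu1, rfl⟩
  · rw [mul_smul, h.fix t ht, mul_smul, hs']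
  · rw [mul_smul, ht', mul_smul, smul_inv_smul, h.fix s hs]

omit h hab h1 h2 in
theorem Nu.inv {ν : G} (hν : Nu U a b τ ν) : Nu U a b τ ν⁻¹ := by
  obtain ⟨e1, e2, s, hs, t, ht, u, hu, hu1, rfl⟩ := hν
  exact ⟨inv_smul_eq_iff.2 e2.symm, inv_smul_eq_iff.2 e1.symm, t⁻¹, U.inv_mem ht, s⁻¹,
    U.inv_mem hs, u⁻¹, U.inv_mem hu, inv_ne_one.2 hu1, by group⟩

theorem exists_conj (h3 : IsMultiplyPretransitive G Ω 3) {ν μ : G} (hν : Nu U a b τ ν)
    (hμ : Nu U a b τ μ) : ∃ e : G, e • a = a ∧ e • b = b ∧ μ = e * ν * e⁻¹ := by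
  obtain ⟨e1, e2, s, hs, t, ht, u, hu, hu1, rfl⟩ := hν
  obtain ⟨f1, f2, s', hs', t', ht', u', hu', hu1', rfl⟩ := hμ
  have hne : ∀ w ∈ U, (τ * w * τ⁻¹) • a ≠ b := fun w hw e =>
    hab (MulAction.injective _ ((h.conj_smul h1 hw).trans e.symm))
  have n1 := h.conj_smul_ne hab h1 h2 hu hu1
  have n2 := h.conj_smul_ne hab h1 h2 hu' hu1'
  obtain ⟨e, g1, g2, g3⟩ := trans3 h3 hab.symm n1.symm (hne u hu).symm hab.symm n2.symm
    (hne u' hu').symm
  have g1' : e⁻¹ • a = a := inv_smul_eq_iff.2 g1.symm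
  have g2' : e⁻¹ • b = b := inv_smul_eq_iff.2 g2.symm
  have i1 : τ⁻¹ • a = b := inv_smul_eq_iff.2 h2.symm
  have i2 : τ⁻¹ • b = a := inv_smul_eq_iff.2 h1.symm
  have k1 : (τ⁻¹ * e * τ) * u * (τ⁻¹ * e * τ)⁻¹ = u' := by
    refine h.eq_of_smul (h.norm _ (by rw [mul_smul, mul_smul, h1, g2, i2]) u hu) hu' hab ?_
    apply MulAction.injective τ
    simp only [mul_smul, mul_inv_rev, inv_inv, smul_inv_smul, h2, g1', i1] at g3 ⊢
    exact g3
  have k2 : τ * u' * τ⁻¹ = e * (τ * u * τ⁻¹) * e⁻¹ := by rw [← k1]; group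
  refine ⟨e, g1, g2, ?_⟩
  have k3 : s' = e * s * e⁻¹ := by
    refine h.eq_of_smul hs' (h.norm e g1 s hs) n2 ?_
    rw [mul_smul _ t', h.fix t' ht', mul_smul] at f1
    rw [mul_smul _ t, h.fix t ht, mul_smul] at e1
    rw [f1, ← g3, mul_smul, mul_smul, inv_smul_smul, e1, g2]
  have k4 : t' = e * t * e⁻¹ := by
    refine h.eq_of_smul ht' (h.norm e g1 t ht) hab ?_
    apply MulAction.injective (s' * (τ * u' * τ⁻¹))
    show (s' * (τ * u' * τ⁻¹)) • t' • b = (s' * (τ * u' * τ⁻¹)) • (e * t * e⁻¹) • b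
    rw [← mul_smul, f2, k2, k3, ← mul_smul,
      show e * s * e⁻¹ * (e * (τ * u * τ⁻¹) * e⁻¹) * (e * t * e⁻¹) =
        e * (s * (τ * u * τ⁻¹) * t) * e⁻¹ by group, mul_smul, mul_smul, g2', e2, g1]
  rw [k2, k3, k4]; group

theorem inf_le_commutator (h3 : IsMultiplyPretransitive G Ω 3) (hU : U ≠ ⊥) :
    normalClosure (U : Set G) ⊓ (stabilizer G a ⊓ stabilizer G b) ≤
      ⁅(pairStab a b : Subgroup G), (pairStab a b : Subgroup G)⁆ := by
  set N : Subgroup G := pairStab a b with hN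
  set K : Subgroup G := ⁅N, N⁆ with hK
  have hKE : ∀ k ∈ K, k • a = a ∧ k • b = b := fun k hk => commutator_pairStab_le a b hk
  have hKn : ∀ g ∈ N, ∀ k ∈ K, g * k * g⁻¹ ∈ K := fun g hg k hk => by
    have : K ≤ K.comap (MulAut.conj g).toMonoidHom := by
      rw [hK, commutator_le]
      intro x hx y hy
      rw [mem_comap, map_commutatorElement]
      exact commutator_mem_commutator (N.mul_mem (N.mul_mem hg hx) (N.inv_mem hg))
        (N.mul_mem (N.mul_mem hg hy) (N.inv_mem hg))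
    exact this hk
  obtain ⟨⟨u₀, hu₀⟩, hu₀1⟩ := ne_bot_iff_exists_ne_one.1 hU
  obtain ⟨s₀, -, t₀, -, hν⟩ := h.exists_nu hab h1 h2 hu₀ fun e => hu₀1 (Subtype.ext e)
  set ν := s₀ * (τ * u₀ * τ⁻¹) * t₀ with hνdef
  have hνN : ν ∈ N := Or.inr ⟨hν.1, hν.2.1⟩
  have hνK : ∀ μ, Nu U a b τ μ → μ * ν⁻¹ ∈ K := fun μ hμ => by
    obtain ⟨e, g1, g2, rfl⟩ := h.exists_conj hab h1 h2 h3 hν hμ
    exact commutator_mem_commutator (show e ∈ N from Or.inl ⟨g1, g2⟩) hνN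
  have hνν : ν⁻¹ * ν⁻¹ ∈ K := hνK _ hν.inv
  let L : Subgroup G :=
    { carrier := {l | l ∈ K ∨ l * ν⁻¹ ∈ K}
      one_mem' := Or.inl K.one_mem
      mul_mem' := by
        rintro l l' (hl | hl) (hl' | hl')
        · exact Or.inl (K.mul_mem hl hl')
        · exact Or.inr (by simpa [mul_assoc] using K.mul_mem hl hl')
        · exact Or.inr (by simpa [mul_assoc] using K.mul_mem hl (hKn ν hνN _ hl'))
        · exact Or.inl (by
            simpa [mul_assoc] using K.mul_mem (K.mul_mem hl (hKn ν hνN _ hl')) (K.inv_mem hνν))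
      inv_mem' := by
        rintro l (hl | hl)
        · exact Or.inl (K.inv_mem hl)
        · exact Or.inr (by
            simpa [mul_assoc] using K.mul_mem (hKn _ (N.inv_mem hνN) _ (K.inv_mem hl)) hνν) }
  have hL : ∀ l ∈ L, l ∈ K ∨ (l • a = b ∧ l • b = a) := by
    rintro l (hl | hl)
    · exact Or.inl hl
    · right
      have e : l = l * ν⁻¹ * ν := by group
      rw [e, mul_smul _ ν, mul_smul _ ν, hν.1, hν.2.1]
      exact (hKE _ hl).symm
  have hV : ∀ u ∈ U, ∀ l ∈ L, l • a = a →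
      ∃ s ∈ U, ∃ t ∈ U, ∃ m ∈ L, τ * u * τ⁻¹ * l = s * m * t := fun u hu l hl hla => by
    by_cases hu1 : u = 1
    · exact ⟨1, U.one_mem, 1, U.one_mem, l, hl, by simp [hu1]⟩
    obtain ⟨s, hs, t, ht, hμ⟩ := h.exists_nu hab h1 h2 hu hu1
    exact ⟨s⁻¹, U.inv_mem hs, l⁻¹ * t⁻¹ * l, h.norm' hla (U.inv_mem ht),
      s * (τ * u * τ⁻¹) * t * l, L.mul_mem (Or.inr (hνK _ hμ)) hl, by group⟩
  let Y : Subgroup G :=
    { carrier := {y | ∃ s ∈ U, ∃ t ∈ U, ∃ l ∈ L, y = s * l * t}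
      one_mem' := ⟨1, U.one_mem, 1, U.one_mem, 1, L.one_mem, by simp⟩
      mul_mem' := by
        rintro _ _ ⟨s, hs, t, ht, l, hl, rfl⟩ ⟨s', hs', t', ht', l', hl', rfl⟩
        have hw := U.mul_mem ht hs'
        rcases hL l hl with k | k
        · exact ⟨s * (l * (t * s') * l⁻¹), U.mul_mem hs (h.norm l (hKE l k).1 _ hw), t', ht',
            l * l', L.mul_mem hl hl', by group⟩
        rcases hL l' hl' with k' | k'
        · exact ⟨s, hs, l'⁻¹ * (t * s') * l' * t', U.mul_mem (h.norm' (hKE l' k').1 hw) ht',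
            l * l', L.mul_mem hl hl', by group⟩
        obtain ⟨s₁, hs₁, t₁, ht₁, m, hm, e⟩ := hV _ (h.norm (τ⁻¹ * l)
          (by rw [mul_smul, k.1, inv_smul_eq_iff, h1]) _ hw) (l * l') (L.mul_mem hl hl')
          (by rw [mul_smul, k'.1, k.2])
        refine ⟨s * s₁, U.mul_mem hs hs₁, t₁ * t', U.mul_mem ht₁ ht', m, hm, ?_⟩
        rw [show s * s₁ * m * (t₁ * t') = s * (s₁ * m * t₁) * t' by group, ← e]
        group
      inv_mem' := by
        rintro _ ⟨s, hs, t, ht, l, hl, rfl⟩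
        exact ⟨t⁻¹, U.inv_mem ht, s⁻¹, U.inv_mem hs, l⁻¹, L.inv_mem hl, by group⟩ }
  have hUY : ∀ u ∈ U, u ∈ Y := fun u hu => ⟨u, hu, 1, U.one_mem, 1, L.one_mem, by simp⟩
  have hXY : normalClosure (U : Set G) ≤ Y := by
    rw [normalClosure, closure_le]
    intro x hx
    obtain ⟨u, hu, hc⟩ := Group.mem_conjugatesOfSet_iff.1 hx
    obtain ⟨g, rfl⟩ := isConj_iff.1 hc
    by_cases hg : g • a = a
    · exact hUY _ (h.norm g hg u hu)
    obtain ⟨w, hw, hw'⟩ := h.trans b _ hab hg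
    obtain ⟨s, hs, t, ht, m, hm, e⟩ := hV _ (h.norm (τ⁻¹ * w⁻¹ * g)
      (by rw [mul_smul, mul_smul, ← hw', inv_smul_smul, inv_smul_eq_iff, h1]) u hu) 1 L.one_mem
      (one_smul _ _)
    refine ⟨w * s, U.mul_mem hw hs, t * w⁻¹, U.mul_mem ht (U.inv_mem hw), m, hm, ?_⟩
    rw [show w * s * m * (t * w⁻¹) = w * (s * m * t) * w⁻¹ by group, ← e]
    group
  rintro y ⟨hy, ya, yb⟩
  obtain ⟨s, hs, t, ht, l, hl, rfl⟩ := hXY hy
  replace ya : (s * l * t) • a = a := ya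
  replace yb : (s * l * t) • b = b := yb
  rcases hL l hl with k | k
  · have e : s * (l * t * l⁻¹) = 1 := h.free _ (U.mul_mem hs (h.norm l (hKE l k).1 t ht)) b hab (by
      rw [← mul_assoc, mul_smul, inv_smul_eq_iff.2 (hKE l k).2.symm, ← mul_assoc]
      exact yb)
    have e' : s * l * t = l := by
      calc s * l * t = s * (l * t * l⁻¹) * l := by group
        _ = l := by rw [e, one_mul]
    rw [e']; exact k
  · rw [mul_smul, mul_smul, h.fix t ht, k.1] at ya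
    exact absurd ya (h.smul_ne hs hab)

end Aff

end H26.TR
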