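import Mathlib
import Cfsg.Agent.Lib.BG3.Ambient
import Cfsg.Agent.Lib.Zsig.Basic
import Cfsg.Agent.Lib.Core.CoprimeAbelian
import Cfsg.Agent.Lib.Core.CoprimeSylow
import Cfsg.Agent.Lib.Core.PCore
import Cfsg.Agent.Lib.PGroup.Omega

/-!
Linear groups of odd degree `f` over `ZMod p` containing an element whose order is a primitive
prime divisor of `p ^ f - 1`.
-/

set_option autoImplicit false

namespace H26.TR

open Cfsg Subgroup MulAction Module
open scoped commutatorElement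

variable {G : Type*} [Group G] [Finite G] {U : Subgroup G} {p f r : ℕ}

theorem card_modEq_cent [Fact p.Prime] {Y S : Subgroup G} (hY : IsPGroup p Y)
    (hn : Y ≤ normalizer (S : Set G)) :
    Nat.card S ≡ Nat.card ↥(S ⊓ centralizer (Y : Set G)) [MOD p] := by
  let φ : Y →* MulAut S := S.normalizerMonoidHom.comp (Subgroup.inclusion hn)
  let _ : MulAction Y S := MulAction.compHom S φ
  have h := hY.card_modEq_card_fixedPoints S
  have e : Nat.card (fixedPoints Y S) = Nat.card ↥(S ⊓ centralizer (Y : Set G)) := by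
    refine Nat.card_congr ⟨fun x => ⟨x.1.1, x.1.2, fun y hy => ?_⟩,
      fun x => ⟨⟨x.1, x.2.1⟩, fun y => Subtype.ext ?_⟩, fun _ => rfl, fun _ => rfl⟩
    · have := congrArg Subtype.val (x.2 ⟨y, hy⟩)
      exact mul_inv_eq_iff_eq_mul.1 this
    · exact mul_inv_eq_iff_eq_mul.2 (x.2.2 y y.2)
  rwa [e] at h

/-- In odd dimension and odd characteristic a real element of odd order fixes a vector. -/
theorem fix_of_real (hp : p.Prime) (hp2 : p ≠ 2) (hU : IsElementaryAbelian p U)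
    (hf : Nat.card U = p ^ f) (hfo : Odd f) {x g : G} (hx : x ∈ normalizer (U : Set G))
    (hg : g ∈ normalizer (U : Set G)) (ho : Odd (orderOf x)) (h : g * x * g⁻¹ = x⁻¹) :
    U ⊓ centralizer {x} ≠ ⊥ := by
  have := Fact.mk hp
  have h' := H46.elemAb_iff hU
  let ρ : normalizer (U : Set G) →* End (ZMod p) (H46.EA p U h') :=
    (H46.EA.rep h').comp U.normalizerMonoidHom
  let δ : normalizer (U : Set G) →* ZMod p := LinearMap.det.comp ρ
  set a : normalizer (U : Set G) := ⟨x, hx⟩ with ha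
  set b : normalizer (U : Set G) := ⟨g, hg⟩ with hb
  have hab : b * a = a⁻¹ * b := Subtype.ext (by
    show g * x = x⁻¹ * g
    rw [← h]; group)
  have hb0 : δ b ≠ 0 := ((Group.isUnit b).map δ).ne_zero
  have h1 : δ a = δ a⁻¹ := by
    have := congrArg δ hab
    rw [map_mul, map_mul, mul_comm] at this
    exact mul_right_cancel₀ hb0 this
  have h2 : δ a ^ 2 = 1 := by
    rw [sq]; nth_rewrite 2 [h1]; rw [← map_mul, mul_inv_cancel, map_one]
  have h3 : δ a = 1 := by
    obtain ⟨k, hk⟩ := ho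
    have : δ a ^ orderOf x = 1 := by
      rw [← map_pow, show a ^ orderOf x = 1 from Subtype.ext (pow_orderOf_eq_one x), map_one]
    rwa [hk, pow_succ, pow_mul, h2, one_pow, one_mul] at this
  have h4 : ρ b * (ρ a - 1) = (-1 : ZMod p) • (ρ a⁻¹ * (ρ a - 1) * ρ b) := by
    rw [mul_sub, mul_sub, ← map_mul, hab, map_mul, ← map_mul ρ a⁻¹ a, inv_mul_cancel, map_one]
    simp [sub_mul]
  have h5 := congrArg LinearMap.det h4
  rw [LinearMap.det_smul, map_mul, map_mul, map_mul, H46.EA.finrank_eq_of_card h' hf,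
    hfo.neg_one_pow] at h5
  have h6 : LinearMap.det (ρ a⁻¹) = 1 := by
    have : δ a⁻¹ = 1 := h1 ▸ h3
    exact this
  have h7 : LinearMap.det (ρ a - 1) = 0 := by
    have h8 : (2 : ZMod p) ≠ 0 := by
      intro e
      have := (ZMod.natCast_eq_zero_iff 2 p).1 (by exact_mod_cast e)
      exact hp2 ((Nat.prime_dvd_prime_iff_eq hp Nat.prime_two).1 this)
    have h9 : 2 * (LinearMap.det (ρ b) * LinearMap.det (ρ a - 1)) = 0 := by
      rw [h6] at h5
      linear_combination h5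
    exact ((mul_eq_zero.1 ((mul_eq_zero.1 h9).resolve_left h8)).resolve_left hb0)
  obtain ⟨v, hv, hv0⟩ := (Submodule.ne_bot_iff _).1 (LinearMap.bot_lt_ker_of_det_eq_zero h7).ne'
  obtain ⟨u, rfl⟩ := (H46.EA.of h').surjective v
  have h8 : U.normalizerMonoidHom a u = u := by
    have := LinearMap.mem_ker.1 hv
    rw [LinearMap.sub_apply, sub_eq_zero] at this
    exact (H46.EA.of h').injective this
  intro e
  have h9 : (u : G) ∈ U ⊓ centralizer {x} :=
    ⟨u.2, (H46.conjAut_eq_self_iff U x hx u).1 h8⟩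
  rw [e, mem_bot] at h9
  exact hv0 (by rw [show u = 1 from Subtype.ext h9]; rfl)

/-- `r` is a primitive prime divisor of `p ^ f - 1`. -/
structure Ppd (p f r : ℕ) : Prop where
  prime : r.Prime
  dvd : r ∣ p ^ f - 1
  min : ∀ k, 0 < k → k < f → ¬ r ∣ p ^ k - 1

namespace Ppd

variable (hr : Ppd p f r) (hp : p.Prime)
include hr hp

theorem not_dvd (hf : f ≠ 0) : ¬ r ∣ p := fun h => by
  have h1 := (Nat.dvd_sub_iff_right (Nat.one_le_pow f p hp.pos) (h.trans (dvd_pow_self p hf))).1 hr.dvd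
  exact hr.prime.one_lt.ne' (Nat.dvd_one.1 h1)

theorem cases {i j : ℕ} (hf : f ≠ 0) (hi : i ≤ f) (hj : j ≤ i) (h : p ^ i ≡ p ^ j [MOD r]) :
    j = i ∨ (j = 0 ∧ i = f) := by
  obtain ⟨k, rfl⟩ := Nat.exists_eq_add_of_le hj
  have h1 : r ∣ p ^ j * (p ^ k - 1) := by
    rw [Nat.mul_sub, ← pow_add, mul_one]
    exact (Nat.modEq_iff_dvd' (Nat.pow_le_pow_right hp.pos hj)).1 h.symm
  have h2 := (hr.prime.dvd_mul.1 h1).resolve_left fun e =>
    hr.not_dvd hp hf (hr.prime.dvd_of_dvd_pow e)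
  by_cases hk : k = 0
  · left; omega
  have := mt (hr.min k (by omega)) (not_not.2 h2)
  right; omega

theorem dvd_pred (hf : f ≠ 0) : f ∣ r - 1 := by
  have := Fact.mk hr.prime
  have h0 : (p : ZMod r) ≠ 0 := fun e => hr.not_dvd hp hf ((ZMod.natCast_eq_zero_iff p r).1 e)
  have h1 : orderOf (p : ZMod r) = f := by
    rw [orderOf_eq_iff (Nat.pos_of_ne_zero hf)]
    exact ⟨(H69.Zsig.dvd_pow_sub_one_iff hp.one_lt f).1 hr.dvd, fun m h1 h2 e =>
      hr.min m h2 h1 ((H69.Zsig.dvd_pow_sub_one_iff hp.one_lt m).2 e)⟩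
  exact h1 ▸ ZMod.orderOf_dvd_card_sub_one h0

variable (hU : IsElementaryAbelian p U) (hf : Nat.card U = p ^ f) (hf0 : f ≠ 0)
include hU hf hf0

omit hU in
/-- An element of order `r` normalising `U` and not centralising it is irreducible. -/
theorem irr {x : G} (hx : x ∈ normalizer (U : Set G)) (hxo : x ^ r = 1)
    (hxc : x ∉ centralizer (U : Set G)) {W : Subgroup G} (hW : W ≤ U)
    (hxW : x ∈ normalizer (W : Set G)) :
    U ⊓ centralizer {x} = ⊥ ∧ (W = ⊥ ∨ W = U) := by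
  have := Fact.mk hr.prime
  have hP : IsPGroup r (zpowers x) := by
    rintro ⟨_, i, rfl⟩
    refine ⟨1, Subtype.ext ?_⟩
    show (x ^ i) ^ r ^ 1 = 1
    rw [pow_one, ← zpow_natCast, ← zpow_mul, mul_comm, zpow_mul, zpow_natCast, hxo, one_zpow]
  have hcard : ∀ V : Subgroup G, V ≤ U → ∃ i ≤ f, Nat.card V = p ^ i := fun V hV =>
    (Nat.dvd_prime_pow hp).1 (hf ▸ card_dvd_of_le hV)
  have h1 : U ⊓ centralizer {x} = ⊥ := by
    have h2 := card_modEq_cent hP (zpowers_le.2 hx)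
    rw [H46.centralizer_zpowers] at h2
    obtain ⟨j, hj, hj'⟩ := hcard (U ⊓ centralizer {x}) inf_le_left
    rw [hf, hj'] at h2
    rcases hr.cases hp hf0 le_rfl hj h2 with e | ⟨e, -⟩
    · have h3 : U ⊓ centralizer {x} = U :=
        eq_of_le_of_card_ge inf_le_left (by rw [hj', hf, e])
      exact absurd (fun u hu => mem_centralizer_singleton_iff.1 (h3.ge hu).2) hxc
    · rw [e, pow_zero] at hj'
      exact card_eq_one.1 hj'
  refine ⟨h1, ?_⟩
  have h2 := card_modEq_cent hP (zpowers_le.2 hxW)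
  rw [H46.centralizer_zpowers, eq_bot_iff.2 ((inf_le_inf_right _ hW).trans h1.le), card_bot] at h2
  obtain ⟨j, hj, hj'⟩ := hcard W hW
  rw [hj', ← pow_zero p] at h2
  rcases hr.cases hp hf0 hj (Nat.zero_le j) h2 with e | ⟨-, e⟩
  · left
    rw [← e, pow_zero] at hj'
    exact card_eq_one.1 hj'
  · right
    exact eq_of_le_of_card_ge hW (by rw [hj', hf, e])

omit hU in
/-- The centraliser of an element of order `r` is semiregular. -/
theorem semireg {x : G} (hx : x ∈ normalizer (U : Set G)) (hxo : x ^ r = 1)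
    (hxc : x ∉ centralizer (U : Set G)) {e : G} (he : e * x = x * e)
    (hec : e ∉ centralizer (U : Set G)) : U ⊓ centralizer {e} = ⊥ := by
  have h1 : x ∈ normalizer ((U ⊓ centralizer {e} : Subgroup G) : Set G) :=
    inf_normalizer_le_normalizer_inf
      ⟨hx, le_normalizer (mem_centralizer_singleton_iff.2 he.symm)⟩
  rcases (hr.irr hp hf hf0 hx hxo hxc inf_le_left h1).2 with h | h
  · exact h
  · exact absurd (fun u hu => mem_centralizer_singleton_iff.1 (h.ge hu).2) hec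

/-- An element of order `r` centralises every `r'`-subgroup that it normalises. -/
theorem cent (hfo : Odd f) (hf1 : f ≠ 1) {E A : Subgroup G} (hE : E ≤ normalizer (U : Set G))
    (hEc : E ⊓ centralizer (U : Set G) = ⊥) {x : G} (hx : x ∈ E) (hxo : orderOf x = r)
    (hA : A ≤ E) (hAr : ¬ r ∣ Nat.card A) (hxA : x ∈ normalizer (A : Set G)) :
    A ≤ centralizer {x} := by
  have hx1 : x ≠ 1 := by
    rintro rfl
    exact hr.prime.one_lt.ne (by simpa using hxo)
  have hxc : x ∉ centralizer (U : Set G) := fun h => hx1 (mem_bot.1 (hEc ▸ ⟨hx, h⟩))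
  have hxr : x ^ r = 1 := hxo ▸ pow_orderOf_eq_one x
  have hR : Nat.card (zpowers x) = r := by rw [Nat.card_zpowers, hxo]
  refine H2.le_of_forall_invariant_sylowIn_le (A := zpowers x) (zpowers_le.2 hxA)
    (by rw [hR]; exact (Nat.Prime.coprime_iff_not_dvd hr.prime).2 hAr)
    (Or.inl inferInstance) fun s hs P hP hxP => ?_
  have hPE : P ≤ E := hP.le.trans hA
  by_cases hsp : s = p
  · subst hsp
    have h1 := card_modEq_cent hP.isPGroup (hPE.trans hE)
    have h2 : x ∈ normalizer ((U ⊓ centralizer (P : Set G) : Subgroup G) : Set G) :=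
      H2.le_normalizer_inf (zpowers_le.2 (hE hx)) (H2.le_normalizer_centralizer hxP)
        (mem_zpowers x)
    rcases (hr.irr hp hf hf0 (hE hx) hxr hxc inf_le_left h2).2 with h | h
    · rw [h, card_bot, hf] at h1
      have := (Nat.modEq_zero_iff_dvd.2 (dvd_pow_self s hf0)).symm.trans h1
      exact absurd (Nat.dvd_one.1 (Nat.modEq_zero_iff_dvd.1 this.symm)) hp.one_lt.ne'
    · have h3 : P ≤ ⊥ := hEc ▸ le_inf hPE (le_centralizer_iff.1 (h.ge.trans inf_le_right))
      exact h3.trans bot_le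
  obtain ⟨n, hn⟩ := hP.isPGroup.exists_card_eq
  have hrP : ¬ r ∣ Nat.card P := fun h => hAr (h.trans (card_dvd_of_le hP.le))
  have key : ⁅zpowers x, P⁆ ≤ centralizer (U : Set G) := by
    by_contra hne
    have := hP.isPGroup.isNilpotent
    obtain ⟨d, h1, h2, h3⟩ := H46.bg34_gen P (zpowers x) U inferInstance hxP (hR ▸ hr.prime)
      (by rw [hR]; exact ((Nat.Prime.coprime_iff_not_dvd hr.prime).2 hrP).symm) hp hU
      (by
        rw [hn]
        exact fun h => hsp ((Nat.prime_dvd_prime_iff_eq hp hs.out).1 (hp.dvd_of_dvd_pow h)).symm)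
      (by
        rw [hR]
        exact fun h => hr.not_dvd hp hf0 (((Nat.prime_dvd_prime_iff_eq hp hr.prime).1 h) ▸ dvd_rfl))
      (hPE.trans hE) (zpowers_le.2 (hE hx))
      (by rw [H46.centralizer_zpowers]; exact (hr.irr hp hf hf0 (hE hx) hxr hxc le_rfl (hE hx)).1)
      hne
    rw [hR] at h2
    have h4 : d ∣ s ^ n := (Dvd.intro _ (sq d).symm).trans (hn ▸ h3)
    have h5 : f ∣ d := by simpa [h2] using hr.dvd_pred hp hf0
    have h6 : 2 ∣ d := by
      rcases hr.prime.eq_two_or_odd' with e | e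
      · omega
      · obtain ⟨k, hk⟩ := e
        omega
    have h7 : s = 2 :=
      ((Nat.prime_dvd_prime_iff_eq Nat.prime_two hs.out).1
        (Nat.prime_two.dvd_of_dvd_pow (h6.trans h4))).symm
    obtain ⟨i, -, hi⟩ := (Nat.dvd_prime_pow hs.out).1 (h5.trans h4)
    rcases i with _ | i
    · exact hf1 (by simpa using hi)
    · rw [hi, h7, pow_succ] at hfo
      exact (Nat.not_odd_iff_even.2 (even_two.mul_left _)) hfo
  have h1 : ⁅zpowers x, P⁆ = ⊥ := eq_bot_iff.2 (hEc ▸ le_inf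
    (commutator_le.2 fun a ha b hb => by
      have ha' := zpowers_le.2 hx ha
      have hb' := hPE hb
      exact E.mul_mem (E.mul_mem (E.mul_mem ha' hb') (E.inv_mem ha')) (E.inv_mem hb')) key)
  rw [commutator_comm, commutator_eq_bot_iff_le_centralizer, H46.centralizer_zpowers] at h1
  exact h1

end Ppd

omit [Finite G] in
theorem commutator_le_centralizer_of_cyclic {N A : Subgroup G} (hA : IsCyclic A)
    (hN : N ≤ normalizer (A : Set G)) : ⁅N, N⁆ ≤ centralizer (A : Set G) := by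
  obtain ⟨x, rfl⟩ := H5.exists_zpowers_eq hA
  rw [H46.centralizer_zpowers, commutator_le]
  intro g hg h hh
  obtain ⟨i, hi⟩ := (mem_normalizer_iff.1 (hN (N.inv_mem hg)) x).1 (mem_zpowers x)
  obtain ⟨j, hj⟩ := (mem_normalizer_iff.1 (hN (N.inv_mem hh)) x).1 (mem_zpowers x)
  simp only [inv_inv] at hi hj
  have h1 : h⁻¹ * (g⁻¹ * x * g) * h = g⁻¹ * (h⁻¹ * x * h) * g := by
    rw [← hi, ← hj]
    have e1 := conj_zpow (a := h⁻¹) (b := x) (i := i)
    have e2 := conj_zpow (a := g⁻¹) (b := x) (i := j)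
    rw [inv_inv] at e1 e2
    rw [← e1, ← e2, ← hi, ← hj, ← zpow_mul, ← zpow_mul, mul_comm]
  rw [mem_centralizer_singleton_iff, commutatorElement_def]
  calc g * h * g⁻¹ * h⁻¹ * x = g * h * (g⁻¹ * (h⁻¹ * x * h) * g) * g⁻¹ * h⁻¹ := by group
    _ = x * (g * h * g⁻¹ * h⁻¹) := by rw [← h1]; group

/-- The linear part of the argument. -/
theorem semireg (hp : p.Prime) (hp2 : p ≠ 2) (hU : IsElementaryAbelian p U)
    (hf : Nat.card U = p ^ f) (hfo : Odd f) {E N D : Subgroup G}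
    (hE : E ≤ normalizer (U : Set G)) (hEc : E ⊓ centralizer (U : Set G) = ⊥)
    (hdvd : p ^ f - 1 ∣ Nat.card E) (hD : D ≤ E) (hEN : E ≤ N)
    (hND : N ≤ normalizer (D : Set G)) (hDN : D ≤ ⁅N, N⁆)
    (hcore : ∀ (r : ℕ) [Fact r.Prime], r ≠ 2 → r ∣ Nat.card D →
      (∀ x : D, orderOf x = r → ∀ z ∈ pPrimeCore r D, z * x = x * z) →
      (∀ x g : D, orderOf x = r → g * x * g⁻¹ ≠ x⁻¹) → pCore r D ≠ ⊥)
    {d : G} (hd : d ∈ D) (hd1 : d ≠ 1) : U ⊓ centralizer {d} = ⊥ := by
  have hf0 : f ≠ 0 := by rintro rfl; exact Nat.not_odd_zero hfo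
  have hnc : ∀ e ∈ E, e ≠ 1 → e ∉ centralizer (U : Set G) := fun e he h1 h =>
    h1 (mem_bot.1 (hEc ▸ ⟨he, h⟩))
  by_cases hf1 : f = 1
  · subst hf1
    rw [pow_one] at hf
    rcases (Nat.dvd_prime hp).1 (hf ▸ card_dvd_of_le (inf_le_left : U ⊓ centralizer {d} ≤ U))
      with h | h
    · exact card_eq_one.1 h
    · have h3 : U ⊓ centralizer {d} = U := eq_of_le_of_card_ge inf_le_left (by rw [h, hf])
      exact absurd (fun u hu => mem_centralizer_singleton_iff.1 (h3.ge hu).2) (hnc d (hD hd) hd1)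
  obtain ⟨r, h1, h2, h3⟩ := H69.Zsig.zsigmondy hp.one_lt (show 1 < f by omega)
    (fun h => hp2 h.1) (fun h => by obtain ⟨k, hk⟩ := hfo; omega)
  have hr : Ppd p f r := ⟨h1, h2, h3⟩
  have := Fact.mk h1
  have hr2 : r ≠ 2 := by
    rintro rfl
    have := Nat.le_of_dvd (by norm_num) (hr.dvd_pred hp hf0)
    omega
  have hne : ∀ x : G, orderOf x = r → x ≠ 1 := by
    rintro x hx rfl
    exact h1.one_lt.ne (by simpa using hx)
  suffices h : ∃ x ∈ E, orderOf x = r ∧ d * x = x * d by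
    obtain ⟨x, hx, hxo, h⟩ := h
    exact hr.semireg hp hf hf0 (hE hx) (hxo ▸ pow_orderOf_eq_one x) (hnc x hx (hne x hxo)) h
      (hnc d (hD hd) hd1)
  by_cases hrD : r ∣ Nat.card D
  swap
  · obtain ⟨⟨x, hx⟩, hxo⟩ := exists_prime_orderOf_dvd_card' r (h2.trans hdvd)
    rw [Subgroup.orderOf_mk] at hxo
    exact ⟨x, hx, hxo, mem_centralizer_singleton_iff.1
      (hr.cent hp hU hf hf0 hfo hf1 hE hEc hx hxo hD hrD (hND (hEN hx)) hd)⟩
  have hP : pCoreOf r D ≠ ⊥ := by
    rw [H1.pCoreOf_def, Ne, map_eq_bot_iff_of_injective _ D.subtype_injective]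
    refine hcore r hr2 hrD (fun x hx z hz => Subtype.ext ?_) fun x g hx e => ?_
    · refine mem_centralizer_singleton_iff.1 (hr.cent hp hU hf hf0 hfo hf1 hE hEc (hD x.2)
        (by rw [Subgroup.orderOf_coe, hx]) ((map_subtype_le (pPrimeCore r D)).trans hD) ?_
        (H1.normalizer_le_normalizer_map_subtype_pPrimeCore D (le_normalizer x.2)) ⟨z, hz, rfl⟩)
      rw [card_map_of_injective D.subtype_injective]
      exact H1.not_dvd_card_pPrimeCore
    · have hxo : orderOf (x : G) = r := by rw [Subgroup.orderOf_coe, hx]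
      exact fix_of_real hp hp2 hU hf hfo (hE (hD x.2)) (hE (hD g.2))
        (hxo ▸ h1.odd_of_ne_two hr2) (congrArg Subtype.val e)
        (hr.irr hp hf hf0 (hE (hD x.2)) (hxo ▸ pow_orderOf_eq_one _) (hnc _ (hD x.2) (hne _ hxo))
          le_rfl (hE (hD x.2))).1
  set P := pCoreOf r D with hPdef
  have hPp : IsPGroup r P := H1.isPGroup_pCoreOf D
  have hPE : P ≤ E := (H1.pCoreOf_le D).trans hD
  have hNP : N ≤ normalizer (P : Set G) := hND.trans (H1.normalizer_le_normalizer_pCoreOf D)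
  let A : Subgroup G := P ⊓ centralizer (P : Set G)
  have hNA : N ≤ normalizer (A : Set G) :=
    H2.le_normalizer_inf hNP (H2.le_normalizer_centralizer hNP)
  obtain ⟨x, hxA, hxo⟩ : ∃ x ∈ A, orderOf x = r := by
    have : Nontrivial P := (nontrivial_iff_ne_bot P).2 hP
    have := hPp.center_nontrivial
    obtain ⟨n, hn⟩ := (hPp.to_subgroup (center P)).exists_card_eq
    have h4 : r ∣ Nat.card (center P) := by
      rw [hn]
      refine dvd_pow_self r fun e => ?_
      rw [e, pow_zero] at hn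
      exact (Finite.one_lt_card (α := center P)).ne' hn
    obtain ⟨⟨⟨x, hx⟩, hx'⟩, hxo⟩ := exists_prime_orderOf_dvd_card' r h4
    rw [Subgroup.orderOf_mk, Subgroup.orderOf_mk] at hxo
    exact ⟨x, ⟨hx, fun y hy => congrArg Subtype.val (mem_center_iff.1 hx' ⟨y, hy⟩)⟩, hxo⟩
  have hcyc : IsCyclic A := by
    refine H2.isCyclic_of_semiregular_of_comm (V := U)
      ⟨⟨fun a b => Subtype.ext (b.2.2 a a.2.1)⟩⟩ hU.1 (fun e => ?_) (inf_le_left.trans (hPE.trans hE))
      fun a ha ha1 => hr.semireg hp hf hf0 (hE (hPE hxA.1)) (hxo ▸ pow_orderOf_eq_one x)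
        (hnc x (hPE hxA.1) (hne x hxo)) (hxA.2 a ha.1) (hnc a (hPE ha.1) ha1)
    rw [e, card_bot] at hf
    exact (Nat.one_lt_pow hf0 hp.one_lt).ne hf
  exact ⟨x, hPE hxA.1, hxo, (commutator_le_centralizer_of_cyclic hcyc hNA (hDN hd) x hxA).symm⟩

end H26.TR
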